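import Cfsg.Agent.Lib.Helper48.S4415.RedDefs

/-!
# S4415, sub-package [R-IRR] of [RED]

`b` fixes `C_E(R)` pointwise and `R ⊔ ⟨b⟩` is irreducible on `[E, R]`.
-/

set_option autoImplicit false

namespace Cfsg.Agent.Lib.Helper84.S4415

open Cfsg.Agent.Lib.Helper78.S4415 Cfsg.Agent.Lib.Helper48.S4415
open scoped commutatorElement

universe u v

/-- a subgroup containing `b` and normalized by `R = ⁅R, ⟨b⟩⁆` contains `R` -/
theorem le_of_comm_norm {S : Type u} [Group S] (R X : Subgroup S) (b : S)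
    (hcomm : ⁅R, Subgroup.zpowers b⁆ = R) (hb : b ∈ X)
    (hnorm : ∀ r ∈ R, ∀ g ∈ X, r * g * r⁻¹ ∈ X) : R ≤ X := by
  have h : ⁅R, Subgroup.zpowers b⁆ ≤ X := by
    rw [Subgroup.commutator_le]
    intro r hr h hh
    have hhX : h ∈ X := (Subgroup.zpowers_le.mpr hb) hh
    rw [commutatorElement_def]
    exact X.mul_mem (hnorm r hr h hhX) (X.inv_mem hhX)
  rw [hcomm] at h
  exact h

section mods

variable {S : Type u} [Group S] {E : Type v} [AddCommGroup E] [Module (ZMod 3) E]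

theorem rep_mul_apply (ρ : Representation (ZMod 3) S E) (g h : S) (y : E) :
    ρ (g * h) y = ρ g (ρ h y) := by
  rw [map_mul]
  rfl

theorem rep_inv_apply (ρ : Representation (ZMod 3) S E) (g : S) (y : E) :
    ρ g (ρ g⁻¹ y) = y := by
  rw [← rep_mul_apply, mul_inv_cancel, map_one]
  rfl

theorem rep_inv_apply' (ρ : Representation (ZMod 3) S E) (g : S) (y : E) :
    ρ g⁻¹ (ρ g y) = y := by
  rw [← rep_mul_apply, inv_mul_cancel, map_one]
  rfl

/-- the elements acting trivially modulo `U` -/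
def trivMod (ρ : Representation (ZMod 3) S E) (U : Submodule (ZMod 3) E) : Subgroup S where
  carrier := {g | ∀ y : E, ρ g y - y ∈ U}
  one_mem' := by
    intro y
    rw [map_one]
    simp
  mul_mem' := by
    intro g h hg hh y
    have h1 : ρ (g * h) y - y = (ρ g (ρ h y) - ρ h y) + (ρ h y - y) := by
      rw [rep_mul_apply]
      abel
    rw [h1]
    exact U.add_mem (hg _) (hh y)
  inv_mem' := by
    intro g hg y
    have h1 := hg (ρ g⁻¹ y)
    rw [rep_inv_apply] at h1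
    have h2 : ρ g⁻¹ y - y = -(y - ρ g⁻¹ y) := by abel
    rw [h2]
    exact U.neg_mem h1

theorem mem_trivMod (ρ : Representation (ZMod 3) S E) (U : Submodule (ZMod 3) E) (g : S) :
    g ∈ trivMod ρ U ↔ ∀ y : E, ρ g y - y ∈ U := Iff.rfl

/-- the elements fixing `U` pointwise -/
def fixPt (ρ : Representation (ZMod 3) S E) (U : Submodule (ZMod 3) E) : Subgroup S where
  carrier := {g | ∀ u ∈ U, ρ g u = u}
  one_mem' := by
    intro u _
    rw [map_one]
    rfl
  mul_mem' := by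
    intro g h hg hh u hu
    rw [rep_mul_apply, hh u hu, hg u hu]
  inv_mem' := by
    intro g hg u hu
    have h1 := rep_inv_apply' ρ g u
    rw [hg u hu] at h1
    exact h1

theorem mem_fixPt (ρ : Representation (ZMod 3) S E) (U : Submodule (ZMod 3) E) (g : S) :
    g ∈ fixPt ρ U ↔ ∀ u ∈ U, ρ g u = u := Iff.rfl

theorem combos (h3 : ∀ v : E, v + v + v = 0) (c A B C : E) :
    A = (c + A + B + C) + (c + A - B - C) - (c - A + B - C) - (c - A - B + C) ∧
    B = (c + A + B + C) - (c + A - B - C) + (c - A + B - C) - (c - A - B + C) ∧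
    C = (c + A + B + C) - (c + A - B - C) - (c - A + B - C) + (c - A - B + C) := by
  refine ⟨?_, ?_, ?_⟩
  · have e : (c + A + B + C) + (c + A - B - C) - (c - A + B - C) - (c - A - B + C) =
        A + (A + A + A) := by abel
    rw [e, h3, add_zero]
  · have e : (c + A + B + C) - (c + A - B - C) + (c - A + B - C) - (c - A - B + C) =
        B + (B + B + B) := by abel
    rw [e, h3, add_zero]
  · have e : (c + A + B + C) - (c + A - B - C) - (c - A + B - C) + (c - A - B + C) =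
        C + (C + C + C) := by abel
    rw [e, h3, add_zero]

end mods

theorem pkgIrr : PkgIrr.{u, v} := by
  intro S _ _ E _ _ _ ρ R b Q hfr hQR hcomm hinf
  obtain ⟨q₁, q₂, w₁, w₂, w₃, hq1, hq2, -, -, -, -, -, -, -, hb1, hb2, hb3, -, h11, h12, h13,
    h21, h22, h23, hdec, -⟩ := hfr
  have hq1R : q₁ ∈ R := hQR hq1
  have hq2R : q₂ ∈ R := hQR hq2
  have h3 : ∀ v : E, v + v + v = 0 := by
    intro v
    have e : v + v + v = ((1 : ZMod 3) + 1 + 1) • v := by
      rw [add_smul, add_smul, one_smul]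
    rw [e, show ((1 : ZMod 3) + 1 + 1) = 0 from by decide, zero_smul]
  have act1 : ∀ (c : E) (a₁ a₂ a₃ : ZMod 3), ρ q₁ c = c →
      ρ q₁ (c + a₁ • w₁ + a₂ • w₂ + a₃ • w₃) = c + a₁ • w₁ - a₂ • w₂ - a₃ • w₃ := by
    intro c a₁ a₂ a₃ hc
    rw [map_add, map_add, map_add, map_smul, map_smul, map_smul, hc, h11, h12, h13, smul_neg,
      smul_neg]
    abel
  have act2 : ∀ (c : E) (a₁ a₂ a₃ : ZMod 3), ρ q₂ c = c →
      ρ q₂ (c + a₁ • w₁ + a₂ • w₂ + a₃ • w₃) = c - a₁ • w₁ + a₂ • w₂ - a₃ • w₃ := by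
    intro c a₁ a₂ a₃ hc
    rw [map_add, map_add, map_add, map_smul, map_smul, map_smul, hc, h21, h22, h23, smul_neg,
      smul_neg]
    abel
  have act12 : ∀ (c : E) (a₁ a₂ a₃ : ZMod 3), ρ q₁ c = c →
      ρ q₁ (c - a₁ • w₁ + a₂ • w₂ - a₃ • w₃) = c - a₁ • w₁ - a₂ • w₂ + a₃ • w₃ := by
    intro c a₁ a₂ a₃ hc
    rw [map_sub, map_add, map_sub, map_smul, map_smul, map_smul, hc, h11, h12, h13, smul_neg,
      smul_neg]
    abel
  -- components of an element of a `q₁`, `q₂`-invariant submodule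
  have comp : ∀ (U : Submodule (ZMod 3) E), (∀ v ∈ U, ρ q₁ v ∈ U) → (∀ v ∈ U, ρ q₂ v ∈ U) →
      ∀ (c : E) (a₁ a₂ a₃ : ZMod 3), ρ q₁ c = c → ρ q₂ c = c →
      c + a₁ • w₁ + a₂ • w₂ + a₃ • w₃ ∈ U → a₁ • w₁ ∈ U ∧ a₂ • w₂ ∈ U ∧ a₃ • w₃ ∈ U := by
    intro U hU1 hU2 c a₁ a₂ a₃ hc1 hc2 hx
    have hx1 := hU1 _ hx
    have hx2 := hU2 _ hx
    rw [act1 c a₁ a₂ a₃ hc1] at hx1
    rw [act2 c a₁ a₂ a₃ hc2] at hx2
    have hx12 := hU1 _ hx2
    rw [act12 c a₁ a₂ a₃ hc1] at hx12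
    obtain ⟨eA, eB, eC⟩ := combos h3 c (a₁ • w₁) (a₂ • w₂) (a₃ • w₃)
    refine ⟨?_, ?_, ?_⟩
    · rw [eA]
      exact U.sub_mem (U.sub_mem (U.add_mem hx hx1) hx2) hx12
    · rw [eB]
      exact U.sub_mem (U.add_mem (U.sub_mem hx hx1) hx2) hx12
    · rw [eC]
      exact U.add_mem (U.sub_mem (U.sub_mem hx hx1) hx2) hx12
  constructor
  · -- `b` fixes `C_E(R)` pointwise
    intro x hx
    obtain ⟨c, a₁, a₂, a₃, hxe, hc1, hc2, hcb⟩ := hdec x
    have hx1 : ρ q₁ x = x := hx q₁ hq1R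
    have hx2 : ρ q₂ x = x := hx q₂ hq2R
    have e1 := act1 c a₁ a₂ a₃ hc1
    have e2 := act2 c a₁ a₂ a₃ hc2
    have e12 := act12 c a₁ a₂ a₃ hc1
    rw [← hxe] at e1 e2
    rw [hx1] at e1
    rw [hx2] at e2
    rw [← e2, hx1] at e12
    obtain ⟨eA, eB, eC⟩ := combos h3 c (a₁ • w₁) (a₂ • w₂) (a₃ • w₃)
    rw [← hxe, ← e1, ← e2, ← e12] at eA eB eC
    have hA : a₁ • w₁ = 0 := by rw [eA]; abel
    have hB : a₂ • w₂ = 0 := by rw [eB]; abel
    have hC : a₃ • w₃ = 0 := by rw [eC]; abel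
    rw [hA, hB, hC, add_zero, add_zero, add_zero] at hxe
    rw [hxe, hcb]
  · intro U hU hinv
    have hRinv : ∀ r ∈ R, ∀ v ∈ U, ρ r v ∈ U :=
      fun r hr v hv => hinv r (Subgroup.mem_sup_left hr) v hv
    have hbinv : ∀ v ∈ U, ρ b v ∈ U :=
      fun v hv => hinv b (Subgroup.mem_sup_right (Subgroup.mem_zpowers b)) v hv
    by_cases hw : w₁ ∈ U
    · right
      have hw2 : w₂ ∈ U := hb1 ▸ hbinv w₁ hw
      have hw3 : w₃ ∈ U := hb2 ▸ hbinv w₂ hw2
      have hbX : b ∈ trivMod ρ U := by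
        intro y
        obtain ⟨c, a₁, a₂, a₃, hye, -, -, hcb⟩ := hdec y
        have e : ρ b y - y = (a₁ • w₂ + a₂ • w₃ + a₃ • w₁) - (a₁ • w₁ + a₂ • w₂ + a₃ • w₃) := by
          rw [hye, map_add, map_add, map_add, map_smul, map_smul, map_smul, hcb, hb1, hb2, hb3]
          abel
        rw [e]
        exact U.sub_mem
          (U.add_mem (U.add_mem (U.smul_mem _ hw2) (U.smul_mem _ hw3)) (U.smul_mem _ hw))
          (U.add_mem (U.add_mem (U.smul_mem _ hw) (U.smul_mem _ hw2)) (U.smul_mem _ hw3))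
      have hRX : R ≤ trivMod ρ U := by
        apply le_of_comm_norm R _ b hcomm hbX
        intro r hr g hg y
        have e : ρ (r * g * r⁻¹) y - y = ρ r (ρ g (ρ r⁻¹ y) - ρ r⁻¹ y) := by
          rw [rep_mul_apply, rep_mul_apply, map_sub, rep_inv_apply]
        rw [e]
        exact hRinv r hr _ (hg _)
      apply le_antisymm hU
      apply Submodule.span_le.mpr
      rintro _ ⟨r, hr, v, rfl⟩
      exact hRX hr v
    · left
      have hw3 : w₃ ∉ U := fun h => hw (hb3 ▸ hbinv w₃ h)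
      have hw2 : w₂ ∉ U := fun h => hw3 (hb2 ▸ hbinv w₂ h)
      have hbY : b ∈ fixPt ρ U := by
        intro x hx
        obtain ⟨c, a₁, a₂, a₃, hxe, hc1, hc2, hcb⟩ := hdec x
        have hx' := hx
        rw [hxe] at hx'
        obtain ⟨m1, m2, m3⟩ := comp U (hRinv q₁ hq1R) (hRinv q₂ hq2R) c a₁ a₂ a₃ hc1 hc2 hx'
        have ha1 : a₁ = 0 := by
          by_contra h
          exact hw ((Submodule.smul_mem_iff U h).mp m1)
        have ha2 : a₂ = 0 := by
          by_contra h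
          exact hw2 ((Submodule.smul_mem_iff U h).mp m2)
        have ha3 : a₃ = 0 := by
          by_contra h
          exact hw3 ((Submodule.smul_mem_iff U h).mp m3)
        rw [ha1, ha2, ha3, zero_smul, zero_smul, zero_smul, add_zero, add_zero, add_zero] at hxe
        rw [hxe, hcb]
      have hRY : R ≤ fixPt ρ U := by
        apply le_of_comm_norm R _ b hcomm hbY
        intro r hr g hg u hu
        have hu' : ρ r⁻¹ u ∈ U := hRinv r⁻¹ (R.inv_mem hr) u hu
        rw [rep_mul_apply, rep_mul_apply, hg _ hu', rep_inv_apply]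
      rw [eq_bot_iff]
      intro x hx
      have hxfix : x ∈ fixR ρ R := fun r hr => hRY hr x hx
      have : x ∈ movR ρ R ⊓ fixR ρ R := ⟨hU hx, hxfix⟩
      rw [hinf] at this
      exact this

end Cfsg.Agent.Lib.Helper84.S4415
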