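import Cfsg.Agent.Lib.Helper78.S4415.Defs

/-!
# S4415, package [DICH]

A minimal normal subgroup of `G` inside `R` that is not centralized by `b` is elementary abelian
or of extraspecial type.
-/

set_option autoImplicit false

namespace Cfsg.Agent.Lib.Helper84.S4415

open Cfsg.Agent.Lib.Helper78.S4415
open scoped commutatorElement

universe u v

/-- Inside a solvable subgroup, a nontrivial subgroup properly contains its commutator subgroup. -/
theorem comm_lt_of_le_solv {G : Type u} [Group G] (R N : Subgroup G) [Group.IsSolvable R]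
    (hNR : N ≤ R) (hN : N ≠ ⊥) : ⁅N, N⁆ < N := by
  have hH : N.subgroupOf R ≠ ⊥ := by
    intro h
    apply hN
    rw [Subgroup.subgroupOf_eq_bot] at h
    rw [eq_bot_iff]
    intro x hx
    have := h.le_bot (show x ∈ N ⊓ R from ⟨hx, hNR hx⟩)
    exact this
  have h1 := Group.IsSolvable.commutator_lt_of_ne_bot hH
  have h2 : (⁅N.subgroupOf R, N.subgroupOf R⁆).map R.subtype < (N.subgroupOf R).map R.subtype :=
    lt_of_le_of_ne (Subgroup.map_mono h1.le)
      (fun h => h1.ne (Subgroup.map_injective R.subtype_injective h))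
  rw [Subgroup.map_commutator, Subgroup.map_subgroupOf_eq_of_le hNR] at h2
  exact h2

/-- The elements of exponent `p` in an abelian subgroup. -/
def torsionSub {G : Type u} [Group G] (N : Subgroup G)
    (hab : ∀ x ∈ N, ∀ y ∈ N, x * y = y * x) (p : ℕ) : Subgroup G where
  carrier := {x | x ∈ N ∧ x ^ p = 1}
  one_mem' := ⟨N.one_mem, one_pow p⟩
  mul_mem' := fun {x y} hx hy => ⟨N.mul_mem hx.1 hy.1, by
    rw [(show Commute x y from hab x hx.1 y hy.1).mul_pow, hx.2, hy.2, one_mul]⟩
  inv_mem' := fun {x} hx => ⟨N.inv_mem hx.1, by rw [inv_pow, hx.2, inv_one]⟩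

theorem mem_torsionSub {G : Type u} [Group G] (N : Subgroup G)
    (hab : ∀ x ∈ N, ∀ y ∈ N, x * y = y * x) (p : ℕ) (x : G) :
    x ∈ torsionSub N hab p ↔ x ∈ N ∧ x ^ p = 1 := Iff.rfl

theorem torsionSub_normal {G : Type u} [Group G] (N : Subgroup G) (hNn : N.Normal)
    (hab : ∀ x ∈ N, ∀ y ∈ N, x * y = y * x) (p : ℕ) : (torsionSub N hab p).Normal := by
  constructor
  intro x hx g
  rw [mem_torsionSub] at hx ⊢
  refine ⟨hNn.conj_mem x hx.1 g, ?_⟩
  rw [conj_pow, hx.2, mul_one, mul_inv_cancel]

/-- The abelian case: if no prime `p` has `N` of exponent `p`, then `b` centralizes `N`. -/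
theorem abelian_case {G : Type u} [Group G] [Finite G] (R N : Subgroup G) (b : G)
    (hcop : (Nat.card R).Coprime 3) (hb3 : b ^ 3 = 1) (hNR : N ≤ R) (hNn : N.Normal)
    (hab : ∀ x ∈ N, ∀ y ∈ N, x * y = y * x)
    (hmin : ∀ M : Subgroup G, M.Normal → M < N → ∀ x ∈ M, b * x = x * b)
    (hnp : ∀ p : ℕ, p.Prime → ∃ x ∈ N, x ^ p ≠ 1) :
    ∀ x ∈ N, b * x = x * b := by
  have key : ∀ n : ℕ, ∀ x ∈ N, orderOf x = n → b * x = x * b := by
    intro n
    induction n using Nat.strong_induction_on with
    | _ n ih =>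
      intro x hx hn
      by_cases h1 : x = 1
      · subst h1; simp
      have hn1 : n ≠ 1 := by
        intro h; rw [h, orderOf_eq_one_iff] at hn; exact h1 hn
      obtain ⟨p, hp⟩ : ∃ p, p = n.minFac := ⟨_, rfl⟩
      have hpp : p.Prime := hp ▸ Nat.minFac_prime hn1
      have hpn : p ∣ n := hp ▸ Nat.minFac_dvd n
      have hnpos : 0 < n := by rw [← hn]; exact orderOf_pos x
      have hord : orderOf (x ^ p) < n := by
        rw [orderOf_pow, hn, Nat.gcd_eq_right hpn]
        exact Nat.div_lt_self hnpos hpp.one_lt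
      have hxp : b * x ^ p = x ^ p * b := ih _ hord (x ^ p) (N.pow_mem hx p) rfl
      obtain ⟨t, ht⟩ : ∃ t, t = x⁻¹ * (b * x * b⁻¹) := ⟨_, rfl⟩
      have hbx : b * x * b⁻¹ ∈ N := hNn.conj_mem x hx b
      have htN : t ∈ N := ht ▸ N.mul_mem (N.inv_mem hx) hbx
      have htp : t ^ p = 1 := by
        rw [ht, (show Commute x⁻¹ (b * x * b⁻¹) from hab _ (N.inv_mem hx) _ hbx).mul_pow,
          conj_pow, hxp, mul_assoc, mul_inv_cancel, mul_one, inv_pow, inv_mul_cancel]
      have hTlt : torsionSub N hab p < N := by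
        refine lt_of_le_of_ne (fun y hy => hy.1) ?_
        intro h
        obtain ⟨y, hy, hyp⟩ := hnp p hpp
        rw [← h] at hy
        exact hyp hy.2
      have hbt : b * t = t * b :=
        hmin _ (torsionSub_normal N hNn hab p) hTlt t ⟨htN, htp⟩
      have c1 : b * x * b⁻¹ = x * t := by rw [ht]; group
      have c2 : b * t * b⁻¹ = t := by rw [hbt]; group
      have c3 : b * (b * (b * x * b⁻¹) * b⁻¹) * b⁻¹ = x * t ^ 3 := by
        rw [c1]
        have e1 : b * (x * t) * b⁻¹ = (b * x * b⁻¹) * (b * t * b⁻¹) := by group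
        rw [e1, c1, c2]
        have e2 : b * (x * t * t) * b⁻¹ = (b * x * b⁻¹) * (b * t * b⁻¹) * (b * t * b⁻¹) := by
          group
        rw [e2, c1, c2, pow_succ, pow_succ, pow_one, mul_assoc, mul_assoc, mul_assoc]
      have c4 : b * (b * (b * x * b⁻¹) * b⁻¹) * b⁻¹ = b ^ 3 * x * (b ^ 3)⁻¹ := by
        have e : b ^ 3 = b * b * b := by rw [pow_succ, pow_succ, pow_one]
        rw [e]; group
      rw [c4, hb3] at c3
      have ht3 : t ^ 3 = 1 := by
        have : x * 1 = x * t ^ 3 := by simpa using c3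
        exact (mul_left_cancel this).symm
      have hp3 : Nat.Coprime p 3 := by
        have h1 : p ∣ Nat.card R := hpn.trans (hn ▸ Subgroup.orderOf_dvd_natCard R (hNR hx))
        exact Nat.Coprime.coprime_dvd_left h1 hcop
      have ht1 : t = 1 := by
        have := pow_gcd_eq_one.mpr ⟨htp, ht3⟩
        rw [hp3, pow_one] at this
        exact this
      rw [ht1, mul_one] at c1
      calc b * x = b * x * b⁻¹ * b := by group
        _ = x * b := by rw [c1]
  intro x hx
  exact key _ x hx rfl

theorem pkgDich : PkgDich.{u, v} := by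
  intro G _ _ V _ _ _ ρ R b Q hS hc hn
  classical
  have := hS.normal
  have := hS.solv
  have huniq : ∀ x y : G, (∀ v : V, ρ x v = -v) → (∀ v : V, ρ y v = -v) → x = y := by
    intro x y hx hy
    apply hS.faith
    ext v
    rw [hx, hy]
  let S : Set (Subgroup G) := {N | N ≤ R ∧ N.Normal ∧ ∃ x ∈ N, b * x ≠ x * b}
  have hSne : S.Nonempty := by
    obtain ⟨q, hq, hqb⟩ := hS.Qmove
    refine ⟨R, le_refl _, hS.normal, q, hS.QR hq, ?_⟩
    intro h
    apply hqb
    rw [h]; group
  obtain ⟨N, ⟨hNR, hNn, hNmove⟩, hNmin⟩ :=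
    WellFounded.has_min (wellFounded_lt (α := Subgroup G)) S hSne
  have := hNn
  have hmin : ∀ M : Subgroup G, M.Normal → M < N → ∀ x ∈ M, b * x = x * b := by
    intro M hMn hMN
    by_contra hcon
    push_neg at hcon
    exact hNmin M ⟨hMN.le.trans hNR, hMn, hcon⟩ hMN
  have hmin' : ∀ M : Subgroup G, M.Normal → M < N →
      ∀ x ∈ M, x = 1 ∨ ∀ v : V, ρ x v = -v := by
    intro M hMn hMN x hx
    exact hc x (hn M hMn (hmin M hMn hMN) x hx)
  have hNbot : N ≠ ⊥ := by
    rintro rfl
    obtain ⟨x, hx, hxb⟩ := hNmove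
    rw [Subgroup.mem_bot] at hx
    subst hx
    simp at hxb
  have hDlt : ⁅N, N⁆ < N := comm_lt_of_le_solv R N hNR hNbot
  have hDn : (⁅N, N⁆).Normal := Subgroup.commutator_normal N N
  by_cases hD : ⁅N, N⁆ = ⊥
  · left
    have hab : ∀ x ∈ N, ∀ y ∈ N, x * y = y * x := by
      intro x hx y hy
      have := Subgroup.commutator_mem_commutator hx hy
      rw [hD, Subgroup.mem_bot, commutatorElement_eq_one_iff_commute] at this
      exact this
    by_contra hcon
    push_neg at hcon
    obtain ⟨x, hx, hxb⟩ := hNmove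
    apply hxb
    apply abelian_case R N b hS.cop hS.b3 hNR hNn hab hmin _ x hx
    intro p hp
    exact hcon N p hNR hNn ⟨x, hx, hxb⟩ hab hp
  · right
    obtain ⟨z, hzD, hz1⟩ : ∃ z ∈ ⁅N, N⁆, z ≠ 1 := by
      by_contra hcon
      push_neg at hcon
      exact hD ((Subgroup.eq_bot_iff_forall _).mpr hcon)
    have hzneg : ∀ v : V, ρ z v = -v := (hmin' _ hDn hDlt z hzD).resolve_left hz1
    have hDz : ∀ x ∈ ⁅N, N⁆, x = 1 ∨ x = z := by
      intro x hx
      rcases hmin' _ hDn hDlt x hx with h | h
      · left; exact h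
      · right; exact huniq x z h hzneg
    have hzN : z ∈ N := hDlt.le hzD
    have hzc : ∀ g : G, z * g = g * z := hn _ hDn (hmin _ hDn hDlt) z hzD
    have hzz : z * z = 1 := by
      apply hS.faith
      ext v
      rw [map_mul, map_one]
      simp [hzneg]
    have hcomm : ∀ x ∈ N, ∀ y ∈ N, x * y = y * x ∨ x * y = z * y * x := by
      intro x hx y hy
      rcases hDz _ (Subgroup.commutator_mem_commutator hx hy) with h | h
      · left; exact commutatorElement_eq_one_iff_commute.mp h
      · right; rw [← h, commutatorElement_def]; group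
    have hZn : (N ⊓ Subgroup.centralizer (N : Set G)).Normal :=
      Subgroup.normal_inf_normal _ _
    have hZlt : N ⊓ Subgroup.centralizer (N : Set G) < N := by
      refine lt_of_le_of_ne inf_le_left ?_
      intro h
      apply hD
      rw [Subgroup.commutator_eq_bot_iff_le_centralizer]
      exact inf_eq_left.mp h
    have hcent : ∀ x ∈ N, (∀ y ∈ N, x * y = y * x) → x = 1 ∨ x = z := by
      intro x hx hxy
      have hxZ : x ∈ N ⊓ Subgroup.centralizer (N : Set G) := by
        refine ⟨hx, Subgroup.mem_centralizer_iff.mpr ?_⟩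
        intro y hy
        exact (hxy y hy).symm
      rcases hmin' _ hZn hZlt x hxZ with h | h
      · left; exact h
      · right; exact huniq x z h hzneg
    have hsq : ∀ x ∈ N, x * x = 1 ∨ x * x = z := by
      intro x hx
      apply hcent (x * x) (N.mul_mem hx hx)
      intro y hy
      rcases hcomm x hx y hy with h | h
      · calc x * x * y = x * (x * y) := by group
          _ = x * (y * x) := by rw [h]
          _ = (x * y) * x := by group
          _ = y * x * x := by rw [h]
          _ = y * (x * x) := by group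
      · calc x * x * y = x * (x * y) := by group
          _ = x * (z * y * x) := by rw [h]
          _ = x * (z * (y * x)) := by group
          _ = x * ((y * x) * z) := by rw [hzc]
          _ = (x * y) * x * z := by group
          _ = z * y * x * x * z := by rw [h]
          _ = z * (y * x * x) * z := by group
          _ = (y * x * x) * z * z := by rw [hzc]
          _ = y * (x * x) * (z * z) := by group
          _ = y * (x * x) := by rw [hzz, mul_one]
    exact ⟨N, z, hNR, hNn, hzN, hz1, hzneg, hsq, hcomm, hcent, hNmove⟩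

end Cfsg.Agent.Lib.Helper84.S4415
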