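import Cfsg.Agent.Lib.Helper82.S4415.MonDefs

/-!
# S4415, sub-package [MON-PRED] of [MON]

Reduction of the permutation lemma to `K = σ(R)`, `c = σ b`.
-/

set_option autoImplicit false

namespace Cfsg.Agent.Lib.Helper84.S4415

open Cfsg.Agent.Lib.Helper78.S4415 Cfsg.Agent.Lib.Helper82.S4415

universe u

theorem pkgMonPRed : PkgMonPRed.{u} := by
  intro G _ _ R b n σ hRn hcop hgen htrans hcyc
  refine ⟨hcyc, ?_, ?_, ?_⟩
  · rintro _ ⟨r, hr, rfl⟩
    refine ⟨b * r * b⁻¹, hRn.conj_mem r hr b, ?_⟩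
    rw [map_mul, map_mul, map_inv]
  · rintro _ ⟨r, hr, rfl⟩ h3
    have h1 : orderOf (σ r) ∣ 3 := orderOf_dvd_of_pow_eq_one h3
    have h2 : orderOf (σ r) ∣ Nat.card R :=
      (orderOf_map_dvd σ r).trans (Subgroup.orderOf_dvd_natCard R hr)
    have h4 : orderOf (σ r) ∣ Nat.gcd (Nat.card R) 3 := Nat.dvd_gcd h2 h1
    rw [hcop, Nat.dvd_one] at h4
    exact orderOf_eq_one_iff.mp h4
  · intro i j
    obtain ⟨g, hg⟩ := htrans i j
    have hgm : g ∈ R ⊔ Subgroup.zpowers b := by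
      rw [hgen]
      exact Subgroup.mem_top g
    have hgm' : g ∈ ((R ⊔ Subgroup.zpowers b : Subgroup G) : Set G) := hgm
    haveI := hRn
    rw [Subgroup.normal_mul] at hgm'
    obtain ⟨r, hr, h, hh, rfl⟩ := Set.mem_mul.mp hgm'
    have hh' : h ∈ Submonoid.powers b := mem_powers_iff_mem_zpowers.mpr hh
    obtain ⟨m, rfl⟩ := hh'
    refine ⟨σ r, ⟨r, hr, rfl⟩, m, ?_⟩
    rw [← map_pow, ← map_mul]
    exact hg

end Cfsg.Agent.Lib.Helper84.S4415
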