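import Cfsg.Agent.Lib.Helper48.S4415.RedDefs

/-!
# S4415, sub-package [R-DEC] of [RED]

Coprime action: `E = [E, R] ⊕ C_E(R)` for a subgroup `R` of order prime to 3 acting on an
`F_3`-module.
-/

set_option autoImplicit false

namespace Cfsg.Agent.Lib.Helper84.S4415

open Cfsg.Agent.Lib.Helper78.S4415 Cfsg.Agent.Lib.Helper48.S4415

universe u v

theorem pkgDec : PkgDec.{u, v} := by
  intro S _ _ E _ _ ρ R hcop
  classical
  haveI : Fintype R := Fintype.ofFinite R
  have hn0 : ((Nat.card R : ℕ) : ZMod 3) ≠ 0 := by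
    intro h
    rw [ZMod.natCast_eq_zero_iff] at h
    have := Nat.Coprime.eq_one_of_dvd hcop.symm h
    omega
  have hcardsum : ∀ v : E, (∑ _r : R, v) = ((Nat.card R : ℕ) : ZMod 3) • v := by
    intro v
    rw [Finset.sum_const, Finset.card_univ, Nat.card_eq_fintype_card, Nat.cast_smul_eq_nsmul]
  obtain ⟨e, he⟩ : ∃ e : E →ₗ[ZMod 3] E,
      ∀ v : E, e v = ((Nat.card R : ℕ) : ZMod 3)⁻¹ • ∑ r : R, ρ (r : S) v := by
    refine ⟨((Nat.card R : ℕ) : ZMod 3)⁻¹ • ∑ r : R, ρ (r : S), ?_⟩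
    intro v
    rw [LinearMap.smul_apply, LinearMap.sum_apply]
  have hfix : ∀ v : E, e v ∈ fixR ρ R := by
    intro v s hs
    rw [he, map_smul, map_sum]
    congr 1
    have h1 : ∀ r : R, ρ s (ρ (r : S) v) = ρ (((⟨s, hs⟩ : R) * r : R) : S) v := by
      intro r
      rw [Subgroup.coe_mul, map_mul]
      rfl
    simp_rw [h1]
    exact Equiv.sum_comp (Equiv.mulLeft (⟨s, hs⟩ : R)) (fun r : R => ρ (r : S) v)
  have hmov0 : ∀ w ∈ movR ρ R, e w = 0 := by
    intro w hw
    refine Submodule.span_induction (p := fun w _ => e w = 0) ?_ ?_ ?_ ?_ hw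
    · rintro _ ⟨t, ht, v, rfl⟩
      rw [he]
      have h1 : ∑ r : R, ρ (r : S) (ρ t v - v) =
          ∑ r : R, ρ ((r * (⟨t, ht⟩ : R) : R) : S) v - ∑ r : R, ρ (r : S) v := by
        rw [← Finset.sum_sub_distrib]
        apply Finset.sum_congr rfl
        intro r _
        rw [map_sub, Subgroup.coe_mul, map_mul]
        rfl
      have h2 : ∑ r : R, ρ ((r * (⟨t, ht⟩ : R) : R) : S) v = ∑ r : R, ρ (r : S) v :=
        Equiv.sum_comp (Equiv.mulRight (⟨t, ht⟩ : R)) (fun r : R => ρ (r : S) v)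
      rw [h1, h2, sub_self, smul_zero]
    · exact map_zero e
    · intro x y _ _ hx hy
      rw [map_add, hx, hy, add_zero]
    · intro c x _ hx
      rw [map_smul, hx, smul_zero]
  have hfixid : ∀ v ∈ fixR ρ R, e v = v := by
    intro v hv
    rw [he]
    have h1 : ∑ r : R, ρ (r : S) v = ∑ _r : R, v :=
      Finset.sum_congr rfl (fun r _ => hv r r.2)
    rw [h1, hcardsum, smul_smul, inv_mul_cancel₀ hn0, one_smul]
  have hmovmem : ∀ v : E, e v - v ∈ movR ρ R := by
    intro v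
    have h1 : e v - v = ((Nat.card R : ℕ) : ZMod 3)⁻¹ • ∑ r : R, (ρ (r : S) v - v) := by
      rw [Finset.sum_sub_distrib, hcardsum, smul_sub, smul_smul, inv_mul_cancel₀ hn0, one_smul,
        he]
    rw [h1]
    apply Submodule.smul_mem
    apply Submodule.sum_mem
    intro r _
    exact Submodule.subset_span ⟨r, r.2, v, rfl⟩
  constructor
  · rw [eq_bot_iff]
    rintro w ⟨hw1, hw2⟩
    have h1 := hmov0 w hw1
    have h2 := hfixid w hw2
    rw [Submodule.mem_bot, ← h2, h1]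
  · rw [eq_top_iff]
    intro v _
    have h1 : v = -(e v - v) + e v := by abel
    rw [h1]
    exact Submodule.add_mem_sup (Submodule.neg_mem _ (hmovmem v)) (hfix v)

end Cfsg.Agent.Lib.Helper84.S4415
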